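import Mathlib
import Cfsg.Agent.Lib.Core.MinNormal

/-! Average size of fixed spaces: if an abelian normal subgroup `M` acts coprimely without fixed
points on a finite abelian group `V`, then on each coset of `M` the geometric mean of `|C_V(y)|`
is at most `|V| ^ (1/2)`. -/

set_option autoImplicit false

namespace CfsgLib.PrimCh

open Subgroup

universe u v

variable {L : Type u} [Group L]

/-- The fixed points of one element. -/
def fx {V : Type v} [AddCommGroup V] (ρ : Representation ℤ L V) (y : L) : Submodule ℤ V :=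
  LinearMap.eqLocus (ρ y) LinearMap.id

theorem mem_fx {V : Type v} [AddCommGroup V] {ρ : Representation ℤ L V} {y : L} {v : V} :
    v ∈ fx ρ y ↔ ρ y v = v := Iff.rfl

/-- The fixed points of a subgroup. -/
noncomputable def fxS {V : Type v} [AddCommGroup V] (ρ : Representation ℤ L V) (H : Subgroup L) :
    Submodule ℤ V := Representation.invariants (ρ.comp H.subtype)

theorem mem_fxS {V : Type v} [AddCommGroup V] {ρ : Representation ℤ L V} {H : Subgroup L} {v : V} :
    v ∈ fxS ρ H ↔ ∀ h ∈ H, ρ h v = v :=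
  ⟨fun h g hg => h ⟨g, hg⟩, fun h g => h g g.2⟩

/-- The stabilizer of a vector. -/
def stab {V : Type v} [AddCommGroup V] (ρ : Representation ℤ L V) (v : V) : Subgroup L where
  carrier := {g | ρ g v = v}
  one_mem' := by simp
  mul_mem' {a b} ha hb := by
    simp only [Set.mem_ofPred_eq] at ha hb ⊢
    rw [map_mul, Module.End.mul_apply, hb, ha]
  inv_mem' {a} ha := by
    simp only [Set.mem_ofPred_eq] at ha ⊢
    conv_lhs => rw [← ha]
    rw [← Module.End.mul_apply, ← map_mul, inv_mul_cancel, map_one, Module.End.one_apply]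

theorem mem_stab {V : Type v} [AddCommGroup V] {ρ : Representation ℤ L V} {v : V} {g : L} :
    g ∈ stab ρ v ↔ ρ g v = v := Iff.rfl

theorem mem_fxS_iff_le {V : Type v} [AddCommGroup V] {ρ : Representation ℤ L V} {H : Subgroup L}
    {v : V} : v ∈ fxS ρ H ↔ H ≤ stab ρ v := mem_fxS

theorem rho_mul {V : Type v} [AddCommGroup V] (ρ : Representation ℤ L V) (a b : L) (v : V) :
    ρ (a * b) v = ρ a (ρ b v) := by rw [map_mul, Module.End.mul_apply]

theorem rho_eq_zero {V : Type v} [AddCommGroup V] (ρ : Representation ℤ L V) {a : L} {v : V}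
    (h : ρ a v = 0) : v = 0 := by
  have : ρ a⁻¹ (ρ a v) = v := by rw [← rho_mul, inv_mul_cancel, map_one, Module.End.one_apply]
  rw [← this, h, map_zero]

theorem eq_zero_of_nsmul {V : Type v} [AddCommGroup V] [Finite V] {n : ℕ}
    (h : n.Coprime (Nat.card V)) {v : V} (hv : n • v = 0) : v = 0 := by
  have h1 : addOrderOf v ∣ n := addOrderOf_dvd_of_nsmul_eq_zero hv
  exact AddMonoid.addOrderOf_eq_one_iff.1
    (Nat.eq_one_of_dvd_coprimes h h1 (addOrderOf_dvd_natCard v))

theorem card_mul_le {V : Type v} [AddCommGroup V] [Finite V] (A B : Submodule ℤ V)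
    (f : V →ₗ[ℤ] V) (h : ∀ b ∈ B, f b ∈ A → b = 0) : Nat.card A * Nat.card B ≤ Nat.card V := by
  rw [← Nat.card_prod]
  refine Nat.card_le_card_of_injective (fun a : A × B => (a.1 : V) + f a.2) ?_
  rintro ⟨a, b⟩ ⟨a', b'⟩ e
  simp only at e
  have h1 : (b : V) - b' = 0 := h _ (B.sub_mem b.2 b'.2) (by
    rw [map_sub, show f b - f b' = a' - a by rw [sub_eq_sub_iff_add_eq_add, add_comm, e]]
    exact A.sub_mem a'.2 a.2)
  have h2 : b = b' := Subtype.ext (sub_eq_zero.1 h1)
  subst h2
  rw [Subtype.ext (add_right_cancel e : (a : V) = a')]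

theorem card_fx_le {V : Type v} [AddCommGroup V] [Finite V] (ρ : Representation ℤ L V)
    (W : Submodule ℤ V) (hW : ∀ g, W ≤ W.comap (ρ g)) (y : L) :
    Nat.card (fx ρ y) ≤
      Nat.card (fx (ρ.subrepresentation W hW) y) * Nat.card (fx (ρ.quotient W hW) y) := by
  have : Finite (V ⧸ W) := Finite.of_surjective _ W.mkQ_surjective
  let f : fx ρ y →ₗ[ℤ] fx (ρ.quotient W hW) y := (W.mkQ.comp (fx ρ y).subtype).codRestrict _
    fun v => by
      rw [mem_fx]
      show W.mkQ (ρ y v) = W.mkQ v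
      rw [mem_fx.1 v.2]
  rw [Submodule.card_eq_card_quotient_mul_card (LinearMap.ker f)]
  apply Nat.mul_le_mul
  · refine Nat.card_le_card_of_injective (fun v => ⟨⟨(v.1 : V), ?_⟩, ?_⟩) ?_
    · have := congrArg Subtype.val (LinearMap.mem_ker.1 v.2)
      exact (Submodule.Quotient.mk_eq_zero W).1 this
    · exact mem_fx.2 (Subtype.ext (mem_fx.1 v.1.2))
    · intro a b e
      exact Subtype.ext (Subtype.ext (congrArg (fun z => ((z.1 : W) : V)) e))
  · rw [Nat.card_congr f.quotKerEquivRange.toEquiv]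
    exact Nat.card_le_card_of_injective _ Subtype.val_injective

/-- The irreducible case. -/
theorem prod_fx_irred [Fintype L] (M : Subgroup L) [hM : M.Normal] [Fintype M]
    (hc : ∀ a ∈ M, ∀ b ∈ M, a * b = b * a) (x : L) (hx : M ⊔ zpowers x = ⊤) {V : Type v}
    [AddCommGroup V] [Finite V] [Nontrivial V] (ρ : Representation ℤ L V)
    (hcop : (Nat.card M).Coprime (Nat.card V)) (hfix : fxS ρ M = ⊥)
    (hirr : ∀ W : Submodule ℤ V, (∀ g, W ≤ W.comap (ρ g)) → W = ⊥ ∨ W = ⊤) :
    (∏ m : M, Nat.card (fx ρ (x * m))) ^ 2 ≤ Nat.card V ^ Nat.card M := by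
  classical
  obtain ⟨H, ⟨hHM, hH⟩, hmax⟩ := (wellFounded_gt (α := Subgroup L)).has_min
    {H | H ≤ M ∧ fxS ρ H ≠ ⊥} ⟨⊥, bot_le, by
      have : fxS ρ (⊥ : Subgroup L) = ⊤ := eq_top_iff.2 fun v _ => mem_fxS.2 fun h hh => by
        rw [mem_bot.1 hh, map_one, Module.End.one_apply]
      rw [this]; exact top_ne_bot⟩
  have hmax' : ∀ m ∈ M, m ∉ H → ∀ v ∈ fxS ρ H, ρ m v = v → v = 0 := by
    intro m hm hmH v hv hmv
    by_contra hv0
    refine hmax (H ⊔ zpowers m) ⟨sup_le hHM (zpowers_le.2 hm), fun h => hv0 ?_⟩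
      (lt_of_le_of_ne le_sup_left fun e => hmH (e ▸ (le_sup_right : zpowers m ≤ _) (mem_zpowers m)))
    rw [← Submodule.mem_bot ℤ, ← h, mem_fxS_iff_le]
    exact sup_le (mem_fxS_iff_le.1 hv) (zpowers_le.2 hmv)
  have hMH : M ≤ normalizer (H : Set L) := fun m hm =>
    CfsgLib.Core.mem_normalizer_of_forall_conj_mem fun h hh => by
      rw [hc m hm h (hHM hh), mul_inv_cancel_right]; exact hh
  by_cases hxH : x ∈ normalizer (H : Set L)
  · have hn : ∀ g : L, g ∈ normalizer (H : Set L) := fun g =>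
      (hx ▸ sup_le hMH (zpowers_le.2 hxH) : ⊤ ≤ normalizer (H : Set L)) (mem_top g)
    have htop : fxS ρ H = ⊤ := (hirr _ fun g v hv => mem_fxS.2 fun h hh => by
      have h1 := mem_fxS.1 hv _ ((mem_normalizer_iff''.1 (hn g) h).1 hh)
      rw [← rho_mul, show h * g = g * (g⁻¹ * h * g) by group, rho_mul, h1]).resolve_left hH
    obtain ⟨m0, hm0, hm0H⟩ : ∃ m0 ∈ M, m0 ∉ H := by
      by_contra h
      push Not at h
      exact hH (by rw [le_antisymm hHM h, hfix])
    have key : ∀ m : M, Nat.card (fx ρ (x * m)) * Nat.card (fx ρ (x * (m * ⟨m0, hm0⟩ : M))) ≤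
        Nat.card V := by
      intro m
      refine card_mul_le _ _ LinearMap.id fun b hb hb' => hmax' m0 hm0 hm0H b (htop ▸ trivial) ?_
      rw [mem_fx, coe_mul, ← mul_assoc, rho_mul] at hb
      have hb'' : ρ (x * m) b = b := hb'
      have : ρ (x * m) (ρ m0 b - b) = 0 := by rw [map_sub, hb, hb'', sub_self]
      exact sub_eq_zero.1 (rho_eq_zero ρ this)
    calc (∏ m : M, Nat.card (fx ρ (x * m))) ^ 2
        = ∏ m : M, (Nat.card (fx ρ (x * m)) * Nat.card (fx ρ (x * (m * ⟨m0, hm0⟩ : M)))) := by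
          rw [Finset.prod_mul_distrib, sq]
          congr 1
          exact (Equiv.prod_comp (Equiv.mulRight (⟨m0, hm0⟩ : M))
            fun m : M => Nat.card (fx ρ (x * m))).symm
      _ ≤ ∏ _m : M, Nat.card V := Finset.prod_le_prod' fun m _ => key m
      _ = _ := by rw [Finset.prod_const, Finset.card_univ, Nat.card_eq_fintype_card (α := M)]
  · obtain ⟨h0, hh0, hh0'⟩ : ∃ h0 ∈ H, x * h0 * x⁻¹ ∉ H := by
      by_contra h
      push Not at h
      exact hxH (CfsgLib.Core.mem_normalizer_of_forall_conj_mem h)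
    have hsq : Nat.card (fxS ρ H) * Nat.card (fxS ρ H) ≤ Nat.card V := by
      refine card_mul_le _ _ (ρ x) fun b hb hb' => rho_eq_zero ρ (a := x)
        (hmax' _ (hM.conj_mem _ (hHM hh0) x) hh0' _ hb' ?_)
      rw [← rho_mul, inv_mul_cancel_right, rho_mul, mem_fxS.1 hb h0 hh0]
    let N : V →ₗ[ℤ] V := ∑ h : H, ρ h
    have hN : ∀ v, N v = ∑ h : H, ρ h v := fun v => LinearMap.sum_apply _ _ _
    have hNm : ∀ m ∈ M, ∀ v, N (ρ m v) = ρ m (N v) := by
      intro m hm v
      rw [hN, hN, map_sum]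
      exact Finset.sum_congr rfl fun h _ => by rw [← rho_mul, ← rho_mul, hc m hm h (hHM h.2)]
    have hNH : ∀ v, N v ∈ fxS ρ H := by
      intro v
      refine mem_fxS.2 fun h hh => ?_
      rw [hN, map_sum]
      refine (Finset.sum_congr rfl fun k _ => ?_).trans
        (Equiv.sum_comp (Equiv.mulLeft (⟨h, hh⟩ : H)) fun k : H => ρ k v)
      rw [← rho_mul]; rfl
    let Z : Submodule ℤ V := ⨅ g : L, LinearMap.ker (N ∘ₗ ρ g)
    have hZ : ∀ v, v ∈ Z ↔ ∀ g, N (ρ g v) = 0 := fun v => by
      simp only [Z, Submodule.mem_iInf, LinearMap.mem_ker, LinearMap.comp_apply]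
    have hZ0 : Z = ⊥ := by
      refine (hirr Z fun g v hv => (hZ _).2 fun k => ?_).resolve_right fun h => hH ?_
      · rw [← rho_mul]; exact (hZ v).1 hv _
      · rw [eq_bot_iff]
        intro u hu
        have h1 := (hZ u).1 (h ▸ trivial) 1
        rw [map_one, Module.End.one_apply, hN,
          Finset.sum_congr rfl fun (k : H) _ => mem_fxS.1 hu (k : L) k.2, Finset.sum_const,
          Finset.card_univ, ← Nat.card_eq_fintype_card] at h1
        exact eq_zero_of_nsmul (Nat.Coprime.coprime_dvd_left (card_dvd_of_le hHM) hcop) h1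
    have key : ∀ m : M, Nat.card (fx ρ (x * m)) ≤ Nat.card (fxS ρ H) := by
      intro m
      let f : fx ρ (x * m) →ₗ[ℤ] fxS ρ H := (N.comp (fx ρ (x * m)).subtype).codRestrict _
        fun v => hNH _
      refine Nat.card_le_card_of_injective f ((injective_iff_map_eq_zero f).2 fun v hv => ?_)
      have hv0 : N v = 0 := congrArg Subtype.val hv
      apply Subtype.ext
      rw [ZeroMemClass.coe_zero, ← Submodule.mem_bot ℤ, ← hZ0, hZ]
      intro g
      have hsup : M ⊔ stab ρ (v : V) = ⊤ := by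
        rw [eq_top_iff, ← hx]
        refine sup_le le_sup_left (zpowers_le.2 ?_)
        have : (x * m) * (m : L)⁻¹ ∈ M ⊔ stab ρ (v : V) :=
          mul_mem (mem_sup_right (mem_stab.2 (mem_fx.1 v.2))) (mem_sup_left (inv_mem m.2))
        rwa [mul_inv_cancel_right] at this
      have hg : g ∈ M ⊔ stab ρ (v : V) := hsup ▸ mem_top g
      obtain ⟨a, ha, s, hs, rfl⟩ := mem_sup_of_normal_left.1 hg
      rw [rho_mul, mem_stab.1 hs, hNm a ha, hv0, map_zero]
    rw [← Finset.prod_pow]
    calc ∏ m : M, Nat.card (fx ρ (x * m)) ^ 2 ≤ ∏ _m : M, Nat.card V :=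
          Finset.prod_le_prod' fun m _ => by
            rw [sq]; exact (Nat.mul_le_mul (key m) (key m)).trans hsq
      _ = _ := by rw [Finset.prod_const, Finset.card_univ, Nat.card_eq_fintype_card (α := M)]

theorem prod_fx_aux [Fintype L] (M : Subgroup L) [hM : M.Normal] [Fintype M]
    (hc : ∀ a ∈ M, ∀ b ∈ M, a * b = b * a) (x : L) (hx : M ⊔ zpowers x = ⊤) (n : ℕ) :
    ∀ (V : Type v) [AddCommGroup V] [Finite V], Nat.card V = n → ∀ ρ : Representation ℤ L V,
      (Nat.card M).Coprime (Nat.card V) → fxS ρ M = ⊥ →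
      (∏ m : M, Nat.card (fx ρ (x * m))) ^ 2 ≤ Nat.card V ^ Nat.card M := by
  classical
  induction n using Nat.strong_induction_on with
  | _ n ih =>
  intro V _ _ hn ρ hcop hfix
  rcases subsingleton_or_nontrivial V with hV | hV
  · rw [Finset.prod_eq_one fun m _ => Nat.card_unique, one_pow]
    exact Nat.one_le_pow _ _ Nat.card_pos
  by_cases hirr : ∀ W : Submodule ℤ V, (∀ g, W ≤ W.comap (ρ g)) → W = ⊥ ∨ W = ⊤
  · exact prod_fx_irred M hc x hx ρ hcop hfix hirr
  push Not at hirr
  obtain ⟨W, hW, hW0, hW1⟩ := hirr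
  have : Finite (V ⧸ W) := Finite.of_surjective _ W.mkQ_surjective
  have hcard := Submodule.card_eq_card_quotient_mul_card W
  have h1 : 1 < Nat.card W := Finite.one_lt_card_iff_nontrivial.2
    (Submodule.nontrivial_iff_ne_bot.2 hW0)
  have h2 : 1 < Nat.card (V ⧸ W) := Finite.one_lt_card_iff_nontrivial.2
    (Submodule.Quotient.nontrivial_iff.2 hW1)
  have i1 := ih (Nat.card W) (by rw [← hn, hcard]; nlinarith) W rfl (ρ.subrepresentation W hW)
    (Nat.Coprime.coprime_dvd_right (hcard ▸ Dvd.intro _ rfl) hcop) (by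
      rw [eq_bot_iff]
      intro w hw
      have : (w : V) ∈ fxS ρ M := mem_fxS.2 fun h hh => congrArg Subtype.val (mem_fxS.1 hw h hh)
      rw [hfix, Submodule.mem_bot] at this
      exact Subtype.ext this)
  have hcop2 : (Nat.card M).Coprime (Nat.card (V ⧸ W)) :=
    Nat.Coprime.coprime_dvd_right (hcard ▸ Dvd.intro_left _ rfl) hcop
  have i2 := ih (Nat.card (V ⧸ W)) (by rw [← hn, hcard]; nlinarith) (V ⧸ W) rfl (ρ.quotient W hW)
    hcop2 (by
      rw [eq_bot_iff]
      intro w hw
      obtain ⟨v, rfl⟩ := W.mkQ_surjective w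
      have h3 : ∑ m : M, ρ m v ∈ fxS ρ M := mem_fxS.2 fun h hh => by
        rw [map_sum]
        refine (Finset.sum_congr rfl fun k _ => ?_).trans
          (Equiv.sum_comp (Equiv.mulLeft (⟨h, hh⟩ : M)) fun k : M => ρ k v)
        rw [← rho_mul]; rfl
      rw [hfix, Submodule.mem_bot] at h3
      have h4 := congrArg W.mkQ h3
      have h5 : ∀ k : M, W.mkQ (ρ k v) = W.mkQ v := fun k => mem_fxS.1 hw (k : L) k.2
      rw [map_sum, map_zero, Finset.sum_congr rfl fun k _ => h5 k, Finset.sum_const, Finset.card_univ,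
        ← Nat.card_eq_fintype_card] at h4
      exact eq_zero_of_nsmul hcop2 h4)
  calc (∏ m : M, Nat.card (fx ρ (x * m))) ^ 2
      ≤ ((∏ m : M, Nat.card (fx (ρ.subrepresentation W hW) (x * m))) *
          ∏ m : M, Nat.card (fx (ρ.quotient W hW) (x * m))) ^ 2 := by
        rw [← Finset.prod_mul_distrib]
        exact Nat.pow_le_pow_left (Finset.prod_le_prod' fun m _ => card_fx_le ρ W hW _) 2
    _ ≤ Nat.card W ^ Nat.card M * Nat.card (V ⧸ W) ^ Nat.card M := by
        rw [mul_pow]; exact Nat.mul_le_mul i1 i2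
    _ = _ := by rw [← mul_pow, ← hcard]

/-- On each coset of the abelian normal subgroup `M`, acting coprimely without fixed points, the
geometric mean of the fixed point numbers is at most `|V| ^ (1/2)`. -/
theorem prod_fx_le [Finite L] (M : Subgroup L) [hM : M.Normal] [Fintype M]
    (hc : ∀ a ∈ M, ∀ b ∈ M, a * b = b * a) (x : L) {V : Type v} [AddCommGroup V] [Finite V]
    (ρ : Representation ℤ L V) (hcop : (Nat.card M).Coprime (Nat.card V)) (hfix : fxS ρ M = ⊥) :
    (∏ m : M, Nat.card (fx ρ (x * m))) ^ 2 ≤ Nat.card V ^ Nat.card M := by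
  classical
  set T := M ⊔ zpowers x with hT
  have := Fintype.ofFinite T
  have := Fintype.ofFinite (M.subgroupOf T)
  have hle : M ≤ T := le_sup_left
  let e := subgroupOfEquivOfLe hle
  let x' : T := ⟨x, mem_sup_right (mem_zpowers x)⟩
  have h := prod_fx_aux (M.subgroupOf T) (fun a ha b hb => Subtype.ext (hc _ ha _ hb)) x' (by
      apply map_injective T.subtype_injective
      rw [Subgroup.map_sup, subgroupOf_map_subtype, inf_of_le_left hle, MonoidHom.map_zpowers,
        ← MonoidHom.range_eq_map, range_subtype]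
      rfl) _ V rfl (ρ.comp T.subtype) (by rwa [Nat.card_congr e.toEquiv]) (by
      rw [eq_bot_iff, ← hfix]
      intro v hv
      exact mem_fxS.2 fun h hh => mem_fxS.1 hv ⟨h, hle hh⟩ hh)
  rw [Nat.card_congr e.toEquiv] at h
  convert h using 2
  exact (Equiv.prod_comp e.toEquiv fun m : M => Nat.card (fx ρ (x * m))).symm

end CfsgLib.PrimCh
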