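import Cfsg.Agent.Lib.PrimCh.Avg
import Cfsg.Agent.Lib.ChDeg.Avg
import Cfsg.Agent.Lib.ChDeg.Cliff
import Cfsg.Agent.Lib.Char.Clifford

/-! Primitive characters of solvable groups: the `p`-part of the degree is bounded by the average
`p`-part of the class sizes. -/

set_option autoImplicit false

namespace CfsgLib.PrimCh

open Subgroup Cfsg CfsgLib.Char CfsgLib.ChDeg

universe u

/-- A normal subgroup acting as a `p`-group on a minimal normal `p`-subgroup centralizes it. -/
theorem le_centralizer_of_pgroup {X : Type*} [Group X] [Finite X] {p : ℕ} [Fact p.Prime]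
    {V : Subgroup X} [V.Normal] (hV : IsPGroup p V)
    (hmin : ∀ M : Subgroup X, M.Normal → M ≤ V → M = ⊥ ∨ M = V) (O : Subgroup X) [O.Normal]
    (hO : ∀ x ∈ O, ∃ k : ℕ, x ^ p ^ k ∈ centralizer (V : Set X)) :
    O ≤ centralizer (V : Set X) := by
  by_cases h0 : V = ⊥
  · subst h0
    intro x _ y hy
    rw [mem_bot.1 hy, one_mul, mul_one]
  let φ : X →* MulAut V := MulAut.conjNormal
  have hker : ∀ x, φ x = 1 ↔ x ∈ centralizer (V : Set X) := by
    intro x
    constructor
    · intro h y hy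
      have := congrArg Subtype.val (DFunLike.congr_fun h ⟨y, hy⟩)
      simp only [φ, MulAut.conjNormal_apply, MulAut.one_apply] at this
      rw [mul_inv_eq_iff_eq_mul] at this
      exact this.symm
    · intro h
      ext y
      simp only [φ, MulAut.conjNormal_apply, MulAut.one_apply]
      rw [← h y y.2, mul_inv_cancel_right]
  have hP : IsPGroup p (O.map φ) := by
    rintro ⟨_, x, hx, rfl⟩
    obtain ⟨k, hk⟩ := hO x hx
    exact ⟨k, Subtype.ext (by
      show φ x ^ p ^ k = 1
      rw [← map_pow]; exact (hker _).2 hk)⟩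
  have hd : p ∣ Nat.card V := CfsgLib.Core.dvd_card_of_isPGroup_of_ne_bot hV h0
  obtain ⟨b, hb, hb1⟩ := hP.exists_fixed_point_of_prime_dvd_card_of_fixed_point V hd
    (a := 1) (fun g => map_one (g : MulAut V))
  have hbO : (b : X) ∈ V ⊓ centralizer (O : Set X) := ⟨b.2, fun x hx => by
    have := congrArg Subtype.val (hb ⟨φ x, x, hx, rfl⟩)
    change x * b * x⁻¹ = b at this
    rw [mul_inv_eq_iff_eq_mul] at this
    exact this⟩
  rcases hmin (V ⊓ centralizer (O : Set X)) inferInstance inf_le_left with h | h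
  · rw [h, mem_bot] at hbO
    exact absurd (Subtype.ext hbO).symm hb1
  · exact le_centralizer_iff.1 (h ▸ inf_le_right)

theorem prod_cent_le {X : Type*} [Group X] [Finite X] [Group.IsSolvable X] {p : ℕ} [Fact p.Prime]
    {V : Subgroup X} [V.Normal] (hV : IsPGroup p V) (hVc : ∀ a ∈ V, ∀ b ∈ V, a * b = b * a)
    (hmin : ∀ M : Subgroup X, M.Normal → M ≤ V → M = ⊥ ∨ M = V)
    (hnc : centralizer (V : Set X) ≠ ⊤) {G : Type*} [Group G] [Fintype G] (π : G →* X)
    (hπ : Function.Surjective π) :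
    (∏ g : G, Nat.card (V ⊓ centralizer {π g} : Subgroup X)) ^ 2 ≤ Nat.card V ^ Nat.card G := by
  classical
  set C := centralizer (V : Set X) with hC
  have : Nontrivial (X ⧸ C) := QuotientGroup.nontrivial_iff.2 hnc
  obtain ⟨r, M, hr, hMn, hM1, hMe, -⟩ :=
    CfsgLib.Core.exists_elementaryAbelian_minimal_normal (X ⧸ C)
  have hMle : ¬ M.comap (QuotientGroup.mk' C) ≤ C := by
    intro h
    apply hM1
    rw [eq_bot_iff]
    intro y hy
    obtain ⟨x, rfl⟩ := QuotientGroup.mk'_surjective C y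
    exact (QuotientGroup.eq_one_iff x).2 (h hy)
  have hrp : r ≠ p := by
    rintro rfl
    refine hMle (le_centralizer_of_pgroup hV hmin _ fun x hx => ⟨1, ?_⟩)
    rw [← hC, ← QuotientGroup.eq_one_iff, pow_one, QuotientGroup.mk_pow]
    exact hMe.2 _ hx
  let _ : CommGroup V := { (inferInstance : Group V) with
    mul_comm := fun a b => Subtype.ext (hVc a a.2 b b.2) }
  let φ : X ⧸ C →* MulAut V := QuotientGroup.lift C MulAut.conjNormal fun x hx => by
    ext y
    simp only [MulAut.conjNormal_apply, MulAut.one_apply]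
    rw [← hx y y.2, mul_inv_cancel_right]
  let _ : MulDistribMulAction (X ⧸ C) V := MulDistribMulAction.compHom V φ
  let ρ := Representation.ofMulDistribMulAction (X ⧸ C) V
  have hρ : ∀ (x : X) (v : Additive V), ρ (x : X ⧸ C) v = v ↔ (v.toMul : X) ∈ centralizer {x} := by
    intro x v
    rw [mem_centralizer_singleton_iff, eq_comm (a := (v.toMul : X) * x), ← mul_inv_eq_iff_eq_mul]
    exact ⟨fun h => congrArg (fun w : Additive V => (w.toMul : X)) h,
      fun h => Additive.toMul.injective (Subtype.ext h)⟩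
  have hcard : ∀ x : X, Nat.card (fx ρ (x : X ⧸ C)) =
      Nat.card (V ⊓ centralizer {x} : Subgroup X) := fun x =>
    Nat.card_congr
      { toFun := fun v => ⟨v.1.toMul, v.1.toMul.2, (hρ x v.1).1 v.2⟩
        invFun := fun v => ⟨Additive.ofMul ⟨v.1, v.2.1⟩, (hρ x _).2 v.2.2⟩
        left_inv := fun _ => rfl
        right_inv := fun _ => rfl }
  have := Fintype.ofFinite M
  have := Fact.mk hr
  have hM := hMe.1
  have key : ∀ x : X ⧸ C, (∏ m : M, Nat.card (fx ρ (x * m))) ^ 2 ≤ Nat.card V ^ Nat.card M :=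
    fun x => prod_fx_le M (fun a ha b hb => setLike_mul_comm ha hb) x ρ
      (IsPGroup.coprime_card_of_ne r p hrp M (⊤ : Subgroup V)
        (CfsgLib.Core.isElementaryAbelian_isPGroup hMe) (hV.to_subgroup ⊤) |>.coprime_dvd_right
        (by rw [card_top]; rfl)) (by
      rw [eq_bot_iff]
      intro v hv
      rcases hmin (V ⊓ centralizer (M.comap (QuotientGroup.mk' C) : Set X)) inferInstance
        inf_le_left with h | h
      · have : (v.toMul : X) ∈ V ⊓ centralizer (M.comap (QuotientGroup.mk' C) : Set X) :=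
          ⟨v.toMul.2, fun x hx =>
            (mem_centralizer_singleton_iff.1 ((hρ x v).1 (mem_fxS.1 hv _ hx))).symm⟩
        rw [h, mem_bot] at this
        exact Additive.toMul.injective (Subtype.ext this)
      · exact absurd (le_centralizer_iff.1 (h.ge.trans inf_le_right)) hMle)
  have hpos : Nat.card M ≠ 0 := Nat.card_pos.ne'
  rw [← Nat.pow_le_pow_iff_left hpos]
  have e1 : (∏ g : G, Nat.card (V ⊓ centralizer {π g} : Subgroup X)) ^ Nat.card M =
      ∏ g : G, ∏ m : M, Nat.card (fx ρ ((π g : X ⧸ C) * m)) := by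
    rw [Finset.prod_comm, Nat.card_eq_fintype_card, ← Finset.card_univ, ← Finset.prod_const]
    refine Finset.prod_congr rfl fun m _ => ?_
    obtain ⟨x, hx⟩ := QuotientGroup.mk_surjective (m : X ⧸ C)
    obtain ⟨g0, rfl⟩ := hπ x
    rw [← Equiv.prod_comp (Equiv.mulRight g0)]
    refine Finset.prod_congr rfl fun g _ => ?_
    rw [← hcard, ← hx, Equiv.coe_mulRight, map_mul, QuotientGroup.mk_mul]
  rw [← pow_mul, mul_comm, pow_mul, e1, ← Finset.prod_pow, ← pow_mul, mul_comm, pow_mul,
    Nat.card_eq_fintype_card (α := G), ← Finset.card_univ, ← Finset.prod_const]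
  exact Finset.prod_le_prod' fun g _ => key _

variable {G : Type u} [Group G]

/-- The class size of `g` modulo `N`. -/
noncomputable def cs (N : Subgroup G) [N.Normal] (g : G) : ℕ :=
  (centralizer {(g : G ⧸ N)}).index

theorem cs_dvd [Finite G] (N : Subgroup G) [N.Normal] (V : Subgroup (G ⧸ N)) [V.Normal] (g : G) :
    cs (V.comap (QuotientGroup.mk' N)) g * Nat.card V ∣
      cs N g * Nat.card (V ⊓ centralizer {(g : G ⧸ N)} : Subgroup (G ⧸ N)) := by
  set K := V.comap (QuotientGroup.mk' N) with hK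
  set A := (centralizer {(g : G ⧸ N)}).comap (QuotientGroup.mk' N) with hA
  set D := (centralizer {(g : G ⧸ K)}).comap (QuotientGroup.mk' K) with hD
  have hNK : N ≤ K := fun x hx => by
    rw [hK, mem_comap, QuotientGroup.mk'_apply, (QuotientGroup.eq_one_iff x).2 hx]
    exact one_mem _
  have hmem : ∀ (L : Subgroup G) [L.Normal] (x : G),
      x ∈ (centralizer {(g : G ⧸ L)}).comap (QuotientGroup.mk' L) ↔ (x * g)⁻¹ * (g * x) ∈ L := by
    intro L _ x
    rw [mem_comap, mem_centralizer_singleton_iff, QuotientGroup.mk'_apply, ← QuotientGroup.mk_mul,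
      ← QuotientGroup.mk_mul, QuotientGroup.eq]
  have hle : A ⊔ K ≤ D := by
    refine sup_le (fun x hx => (hmem K x).2 (hNK ((hmem N x).1 hx))) fun x hx => (hmem K x).2 ?_
    have := mul_mem ((inferInstance : K.Normal).conj_mem' _ (inv_mem hx) g) hx
    convert this using 1
    group
  obtain ⟨t, ht⟩ := card_dvd_of_le hle
  have e1 : Nat.card A * cs N g = Nat.card G := by
    rw [cs, ← index_comap_of_surjective _ (QuotientGroup.mk'_surjective N), card_mul_index]
  have e2 : Nat.card D * cs K g = Nat.card G := by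
    rw [cs, ← index_comap_of_surjective _ (QuotientGroup.mk'_surjective K), card_mul_index]
  have e3 := CfsgLib.Core.card_sup_mul_card_inf_of_normal A K
  have e4 : Nat.card (A ⊓ K : Subgroup G) =
      Nat.card (V ⊓ centralizer {(g : G ⧸ N)} : Subgroup (G ⧸ N)) * Nat.card N := by
    rw [← CfsgLib.Core.card_comap_mk', comap_inf, inf_comm]
  have e5 : Nat.card K = Nat.card V * Nat.card N := CfsgLib.Core.card_comap_mk' N V
  refine ⟨t, Nat.eq_of_mul_eq_mul_left (Nat.mul_pos (Nat.card_pos (α := A))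
    (Nat.card_pos (α := N))) ?_⟩
  calc Nat.card A * Nat.card N * (cs N g * Nat.card (V ⊓ centralizer {(g : G ⧸ N)} : Subgroup _))
      = (Nat.card A * cs N g) * Nat.card (A ⊓ K : Subgroup G) := by rw [e4]; ring
    _ = t * cs K g * (Nat.card (A ⊔ K : Subgroup G) * Nat.card (A ⊓ K : Subgroup G)) := by
        rw [e1, ← e2, ht]; ring
    _ = _ := by rw [e3, e5]; ring

theorem cs_ne_zero [Finite G] (N : Subgroup G) [N.Normal] (g : G) : cs N g ≠ 0 :=
  FiniteIndex.index_ne_zero

/-- Going down one step for a primitive character. -/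
theorem degree_step [Fintype G] {χ : G → ℂ} (hχ : IsIrrCharacter G χ)
    (hprim : ¬ ∃ (H : Subgroup G), H ≠ ⊤ ∧ ∃ θ : H → ℂ, IsCharacter H θ ∧ indFun H θ = χ)
    {N K : Subgroup G} [N.Normal] [K.Normal] [Fintype N] [Fintype K] (hNK : N ≤ K) {θ : N → ℂ}
    (hθ : IsIrrCharacter N θ) (h1 : classInner (fun n : N => χ n) θ ≠ 0) {φ : K → ℂ}
    (hφ : IsIrrCharacter K φ) (h2 : classInner (fun n : K => χ n) φ ≠ 0) :
    ∃ e : ℕ, e ∣ N.relIndex K ∧ e ^ 2 ≤ N.relIndex K ∧ charDegree φ = e * charDegree θ := by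
  classical
  have hq : ∀ (L : Subgroup G) [L.Normal] [Fintype L] {ψ : L → ℂ}, IsIrrCharacter L ψ →
      classInner (fun n : L => χ n) ψ ≠ 0 →
      (fun n : L => χ n) = classInner (fun n : L => χ n) ψ • ψ := by
    intro L _ _ ψ hψ h
    refine clifford_invariant L hχ hψ h fun g => ?_
    obtain ⟨η, hη, hη', -⟩ := clifford_corr L (inertia L ψ)
      (le_inertia L (isClassFunction_of_isIrr hψ)) hψ rfl hχ h
    have : inertia L ψ = ⊤ := by
      by_contra hne
      exact hprim ⟨_, hne, η, isCharacter_of_isIrr hη, hη'⟩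
    exact (mem_inertia L).1 (this ▸ mem_top g)
  have a1 := hq N hθ h1
  have a2 := hq K hφ h2
  set b := classInner (fun n : N => χ n) θ
  set a := classInner (fun n : K => χ n) φ
  let ε := subgroupOfEquivOfLe hNK
  have := Fintype.ofFinite (N.subgroupOf K)
  have hθ' : IsIrrCharacter (N.subgroupOf K) (fun n => θ (ε n)) := isIrr_comp_mulEquiv ε hθ
  have hres : ∀ n : N.subgroupOf K, φ n = (b / a) * θ (ε n) := by
    intro n
    have c1 : χ ((n : K) : G) = b * θ (ε n) := congrFun a1 (ε n)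
    have c2 : χ ((n : K) : G) = a * φ n := congrFun a2 n
    field_simp
    rw [← c1, c2, mul_comm]
  obtain ⟨e, he, he'⟩ := CfsgLib.CharDeep.exists_degree_eq_mul (N.subgroupOf K) hθ' hφ (by
    rw [funext hres]
    show classInner ((b / a) • fun n => θ (ε n)) _ ≠ 0
    rw [classInner_smul_left, classInner_irr_self hθ', mul_one]
    exact div_ne_zero h1 h2)
  rw [map_one] at he'
  have hba : b / a = e := by
    have := hres 1
    rw [OneMemClass.coe_one, map_one, he'] at this
    exact (mul_right_cancel₀ (irr_one_ne_zero hθ) this).symm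
  refine ⟨e, he, ?_, deg_eq_of_eq (by
    rw [he', Nat.cast_mul, deg_cast (isCharacter_of_isIrr hθ)])⟩
  have h := sum_norm_sq_subgroup_le hφ (N.subgroupOf K)
  rw [Finset.sum_congr rfl (g := fun n => (e : ℝ) ^ 2 * ‖θ (ε n)‖ ^ 2) (fun n _ => by
    rw [hres, hba, norm_mul, mul_pow, Complex.norm_natCast]), ← Finset.mul_sum,
    sum_norm_sq_irr hθ', ← (N.subgroupOf K).card_mul_index] at h
  have h' : e ^ 2 * Nat.card (N.subgroupOf K) ≤
      Nat.card (N.subgroupOf K) * (N.subgroupOf K).index := by exact_mod_cast h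
  rw [mul_comm] at h'
  exact Nat.le_of_mul_le_mul_left h' Nat.card_pos

theorem main_aux [Fintype G] [Group.IsSolvable G] {χ : G → ℂ} (hχ : IsIrrCharacter G χ)
    (hprim : ¬ ∃ (H : Subgroup G), H ≠ ⊤ ∧ ∃ θ : H → ℂ, IsCharacter H θ ∧ indFun H θ = χ)
    (p : ℕ) [hp : Fact p.Prime] (O : Subgroup G)
    (hO : ∀ (N : Subgroup G) [N.Normal] (V : Subgroup (G ⧸ N)), V.Normal → IsPGroup p V →
      (∀ M : Subgroup (G ⧸ N), M.Normal → M ≤ V → M = ⊥ ∨ M = V) →
      ∀ h ∈ O, (h : G ⧸ N) ∈ centralizer (V : Set (G ⧸ N))) (N : Subgroup G) :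
    ∀ [N.Normal] [Fintype N] (θ : N → ℂ), IsIrrCharacter N θ →
      classInner (fun n : N => χ n) θ ≠ 0 → ∃ a : G → ℕ,
        (∀ g, a g ≤ (cs N g).factorization p) ∧ (∀ g, ∀ h ∈ O, a (g * h) = a g) ∧
        Nat.card G * (charDegree χ).factorization p ≤
          ∑ g, a g + Nat.card G * (charDegree θ).factorization p := by
  classical
  induction N using WellFoundedGT.induction with
  | ind N ih =>
  intro _ _ θ hθ h1
  by_cases hN : N = ⊤
  · subst hN
    obtain ⟨e, he, he'⟩ := CfsgLib.CharDeep.exists_degree_eq_mul ⊤ hθ hχ h1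
    rw [index_top, Nat.dvd_one] at he
    subst he
    refine ⟨0, fun _ => Nat.zero_le _, fun _ _ _ => rfl, ?_⟩
    rw [deg_congr (χ := χ) (ψ := θ) (by rw [he', Nat.cast_one, one_mul])]
    exact Nat.le_add_left _ _
  have : Nontrivial (G ⧸ N) := QuotientGroup.nontrivial_iff.2 hN
  obtain ⟨q, V, hq, hVn, hV1, hVe, hmin⟩ :=
    CfsgLib.Core.exists_elementaryAbelian_minimal_normal (G ⧸ N)
  set K := V.comap (QuotientGroup.mk' N) with hK
  have hNK : N ≤ K := fun x hx => by
    rw [hK, mem_comap, QuotientGroup.mk'_apply, (QuotientGroup.eq_one_iff x).2 hx]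
    exact one_mem _
  have hidx : N.relIndex K = Nat.card V := by
    have h2 := CfsgLib.Core.card_mul_relIndex_of_le hNK
    rw [hK, CfsgLib.Core.card_comap_mk', mul_comm (Nat.card V)] at h2
    exact Nat.eq_of_mul_eq_mul_left Nat.card_pos h2
  have hlt : N < K := lt_of_le_of_ne hNK fun e => hV1 (by
    rw [← card_eq_one, ← hidx, relIndex_eq_one, ← e])
  have := Fintype.ofFinite K
  obtain ⟨φ, hφ, h2⟩ := exists_irr_constituent
    (isCharacter_restrict K (isCharacter_of_isIrr hχ)) (irr_one_ne_zero hχ)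
  obtain ⟨a, ha1, ha2, ha3⟩ := ih K hlt φ hφ h2
  obtain ⟨e, he1, he2, he3⟩ := degree_step hχ hprim hNK hθ h1 hφ h2
  rw [hidx] at he1 he2
  have he0 : e ≠ 0 := ne_zero_of_dvd_ne_zero Nat.card_pos.ne' he1
  rw [he3, Nat.factorization_mul he0 (deg_pos hθ).ne', Finsupp.add_apply, mul_add] at ha3
  have hcs : ∀ g : G, (cs K g).factorization p + (Nat.card V).factorization p ≤
      (cs N g).factorization p +
        (Nat.card (V ⊓ centralizer {(g : G ⧸ N)} : Subgroup (G ⧸ N))).factorization p := by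
    intro g
    have := (Nat.factorization_le_iff_dvd (mul_ne_zero (cs_ne_zero _ g) Nat.card_pos.ne')
      (mul_ne_zero (cs_ne_zero _ g) Nat.card_pos.ne')).2 (cs_dvd N V g) p
    rwa [Nat.factorization_mul (cs_ne_zero _ g) Nat.card_pos.ne',
      Nat.factorization_mul (cs_ne_zero _ g) Nat.card_pos.ne'] at this
  have hle : ∀ g : G, (Nat.card (V ⊓ centralizer {(g : G ⧸ N)} : Subgroup (G ⧸ N))).factorization p
      ≤ (Nat.card V).factorization p := fun g =>
    (Nat.factorization_le_iff_dvd Nat.card_pos.ne' Nat.card_pos.ne').2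
      (card_dvd_of_le inf_le_left) p
  have hVq := CfsgLib.Core.isElementaryAbelian_isPGroup hVe
  have := Fact.mk hq
  by_cases hz : e.factorization p = 0
  · refine ⟨a, fun g => ?_, ha2, by rwa [hz, mul_zero, zero_add] at ha3⟩
    have := ha1 g
    have := hcs g
    have := hle g
    omega
  have hpe : p ∣ e := Nat.dvd_of_factorization_pos hz
  obtain ⟨n, hn⟩ := hVq.exists_card_eq
  have hqp : q = p := ((Nat.prime_dvd_prime_iff_eq hp.out hq).1
    (hp.out.dvd_of_dvd_pow (hn ▸ hpe.trans he1))).symm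
  subst hqp
  have hen : 2 * e.factorization q ≤ n := by
    rw [← Nat.pow_le_pow_iff_right hq.one_lt, ← hn, mul_comm, pow_mul]
    exact (Nat.pow_le_pow_left (Nat.le_of_dvd (Nat.pos_of_ne_zero he0) (Nat.ordProj_dvd e q)) 2).trans
      he2
  have hVc := hVe.1
  have hnc : centralizer (V : Set (G ⧸ N)) ≠ ⊤ := by
    intro hc
    obtain ⟨v, hv, hvo⟩ := CfsgLib.Core.exists_mem_orderOf_eq_of_isPGroup hVq hV1
    have hzn : (zpowers v).Normal := ⟨fun y hy g => by
      have : y * g = g * y := (hc ▸ mem_top g : g ∈ centralizer (V : Set (G ⧸ N))) y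
        (zpowers_le.2 hv hy)
      rwa [← this, mul_inv_cancel_right]⟩
    rcases hmin _ hzn (zpowers_le.2 hv) with h | h
    · rw [zpowers_eq_bot] at h
      rw [h, orderOf_one] at hvo
      exact hq.one_lt.ne hvo
    · rw [← h, Nat.card_zpowers, hvo] at hn
      have : n = 1 := by
        rw [← pow_one q, ← pow_mul, one_mul] at hn
        exact (Nat.pow_right_injective hq.two_le hn).symm
      omega
  have hprod := prod_cent_le hVq (fun a ha b hb => setLike_mul_comm ha hb) hmin hnc
    (QuotientGroup.mk' N) (QuotientGroup.mk'_surjective N)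
  set c : G → ℕ := fun g =>
    (Nat.card (V ⊓ centralizer {(g : G ⧸ N)} : Subgroup (G ⧸ N))).factorization q with hc
  have hcc : ∀ g : G, Nat.card (V ⊓ centralizer {QuotientGroup.mk' N g} : Subgroup (G ⧸ N)) =
      q ^ c g := by
    intro g
    obtain ⟨k, hk⟩ := (hVq.to_inf_left (K := centralizer {(g : G ⧸ N)})).exists_card_eq
    simp only [hc, QuotientGroup.mk'_apply]
    rw [hk, Nat.Prime.factorization_pow hq, Finsupp.single_eq_same]
  rw [Finset.prod_congr rfl fun g _ => hcc g, Finset.prod_pow_eq_pow_sum, hn, ← pow_mul, ← pow_mul,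
    Nat.pow_le_pow_iff_right hq.one_lt] at hprod
  have hn' : (Nat.card V).factorization q = n := by
    rw [hn, Nat.Prime.factorization_pow hq, Finsupp.single_eq_same]
  rw [hn'] at hcs hle
  refine ⟨fun g => a g + (n - c g), fun g => ?_, fun g h hh => ?_, ?_⟩
  · have := ha1 g
    have := hcs g
    have := hle g
    simp only [hc]
    omega
  · have : (V ⊓ centralizer {((g * h : G) : G ⧸ N)} : Subgroup (G ⧸ N)) =
        V ⊓ centralizer {(g : G ⧸ N)} := by
      ext y
      refine and_congr_right fun hy => ?_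
      have := hO N V hVn hVq hmin h hh y hy
      show y ∈ centralizer _ ↔ y ∈ centralizer _
      rw [mem_centralizer_singleton_iff, mem_centralizer_singleton_iff, QuotientGroup.mk_mul,
        mul_assoc, ← this, ← mul_assoc, ← mul_assoc, mul_left_inj]
    simp only [hc, ha2 g h hh, this]
  · have s1 : ∑ g : G, (n - c g) + ∑ g : G, c g = Nat.card G * n := by
      rw [← Finset.sum_add_distrib, Finset.sum_congr rfl fun g _ => Nat.sub_add_cancel (hle g),
        Finset.sum_const, Finset.card_univ, smul_eq_mul, Nat.card_eq_fintype_card]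
    rw [Finset.sum_add_distrib]
    have s2 : Nat.card G * (2 * e.factorization q) ≤ Nat.card G * n := Nat.mul_le_mul_left _ hen
    nlinarith

/-- The main result: a function bounding the `p`-parts of the class sizes from below, constant on
cosets of `O`, that reaches the `p`-part of the degree. -/
theorem exists_bound [Fintype G] [Group.IsSolvable G] {χ : G → ℂ} (hχ : IsIrrCharacter G χ)
    (hprim : ¬ ∃ (H : Subgroup G), H ≠ ⊤ ∧ ∃ θ : H → ℂ, IsCharacter H θ ∧ indFun H θ = χ)
    (p : ℕ) [hp : Fact p.Prime] (O : Subgroup G)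
    (hO : ∀ (N : Subgroup G) [N.Normal] (V : Subgroup (G ⧸ N)), V.Normal → IsPGroup p V →
      (∀ M : Subgroup (G ⧸ N), M.Normal → M ≤ V → M = ⊥ ∨ M = V) →
      ∀ h ∈ O, (h : G ⧸ N) ∈ centralizer (V : Set (G ⧸ N))) :
    ∃ g₀ : G, ∀ h ∈ O, (charDegree χ).factorization p ≤
      (centralizer {g₀ * h}).index.factorization p := by
  classical
  have := Fintype.ofFinite (⊥ : Subgroup G)
  obtain ⟨θ, hθ, h1⟩ := exists_irr_constituent
    (isCharacter_restrict ⊥ (isCharacter_of_isIrr hχ)) (irr_one_ne_zero hχ)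
  obtain ⟨a, ha1, ha2, ha3⟩ := main_aux hχ hprim p O hO ⊥ θ hθ h1
  have hd := deg_dvd_card hθ
  rw [card_bot, Nat.dvd_one] at hd
  rw [hd, Nat.factorization_one, Finsupp.zero_apply, mul_zero, add_zero,
    Nat.card_eq_fintype_card, ← Finset.card_univ, ← smul_eq_mul, ← Finset.sum_const] at ha3
  obtain ⟨g, -, hg⟩ := Finset.exists_le_of_sum_le Finset.univ_nonempty ha3
  refine ⟨g, fun h hh => hg.trans ((ha2 g h hh).symm.le.trans ((ha1 _).trans_eq ?_))⟩
  rw [cs, ← index_comap_of_surjective _ (QuotientGroup.mk'_surjective (⊥ : Subgroup G))]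
  refine congrArg (fun H : Subgroup G => H.index.factorization p) ?_
  ext x
  rw [mem_comap, mem_centralizer_singleton_iff, mem_centralizer_singleton_iff,
    QuotientGroup.mk'_apply, ← QuotientGroup.mk_mul, ← QuotientGroup.mk_mul, QuotientGroup.eq,
    mem_bot, inv_mul_eq_one]

theorem exists_class [Fintype G] [Group.IsSolvable G] {χ : G → ℂ} (hχ : IsIrrCharacter G χ)
    (hprim : ¬ ∃ (H : Subgroup G), H ≠ ⊤ ∧ ∃ θ : H → ℂ, IsCharacter H θ ∧ indFun H θ = χ)
    (p : ℕ) [hp : Fact p.Prime] :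
    ∃ g : G, (charDegree χ).factorization p ≤ (centralizer {g}).index.factorization p := by
  obtain ⟨g, hg⟩ := exists_bound hχ hprim p ⊥ fun N _ V _ _ _ h hh => by
    rw [mem_bot.1 hh]; exact one_mem _
  exact ⟨_, hg 1 (one_mem _)⟩

end CfsgLib.PrimCh
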